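import Mathlib

/-!
# TEAM RV, NRow for the exceptional groups: LEMMA A, weights (helper563)

`f, f'` commuting operators of odd order `n` (invertible in `k`), `t ^ 4 = 1`, `t f t⁻¹ = f'`, `t f' t⁻¹ = f⁻¹`; if `-1`
is not an eigenvalue of `t` then `f = 1`.
-/

set_option autoImplicit false

namespace Cfsg.Agent.H563.RV.LemA

open Module

universe u v

variable {k : Type u} [Field k] {V : Type v} [AddCommGroup V] [Module k V]

theorem odd_eq_one {a : k} {n : ℕ} (hn : Odd n) (h : a ^ n = 1) (h2 : a * a = 1) : a = 1 := by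
  obtain ⟨m, rfl⟩ := hn
  rw [pow_succ, pow_mul, pow_two, h2, one_pow, one_mul] at h
  exact h

theorem step_e {f f' t : End k V} (h1 : t * f = f' * t) (h2 : f * t * f' = t) {x : V} {a b : k} (hb : b ≠ 0)
    (hx : f x = a • x) (hx' : f' x = b • x) : f (t x) = b⁻¹ • t x ∧ f' (t x) = a • t x := by
  constructor
  · have h3 : f (t (f' x)) = t x := congrArg (fun g : End k V => g x) h2
    rw [hx', map_smul, map_smul] at h3
    rw [← h3, smul_smul, inv_mul_cancel₀ hb, one_smul, h3]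
  · have h3 : t (f x) = f' (t x) := congrArg (fun g : End k V => g x) h1
    rw [← h3, hx, map_smul]

theorem pow_eig {f : End k V} {x : V} {a : k} (hx : f x = a • x) (n : ℕ) : (f ^ n) x = a ^ n • x := by
  induction n with
  | zero => rw [pow_zero, pow_zero, one_smul]; rfl
  | succ n ih =>
    rw [pow_succ', Module.End.mul_apply, ih, map_smul, hx, smul_smul, pow_succ]

/-- eliminate -/
theorem elim {g : End k V} {e0 e1 e2 e3 : V} {c0 c1 c2 c3 γ0 γ1 γ2 γ3 : k} (μ : k)
    (h : c0 • e0 + c1 • e1 + c2 • e2 + c3 • e3 = 0) (h0 : g e0 = γ0 • e0) (h1 : g e1 = γ1 • e1) (h2 : g e2 = γ2 • e2)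
    (h3 : g e3 = γ3 • e3) :
    (c0 * (γ0 - μ)) • e0 + (c1 * (γ1 - μ)) • e1 + (c2 * (γ2 - μ)) • e2 + (c3 * (γ3 - μ)) • e3 = 0 := by
  have h4 := congrArg g h
  rw [map_add, map_add, map_add, map_smul, map_smul, map_smul, map_smul, h0, h1, h2, h3, map_zero] at h4
  have h5 : (c0 * (γ0 - μ)) • e0 + (c1 * (γ1 - μ)) • e1 + (c2 * (γ2 - μ)) • e2 + (c3 * (γ3 - μ)) • e3 =
      (c0 • γ0 • e0 + c1 • γ1 • e1 + c2 • γ2 • e2 + c3 • γ3 • e3) - μ • (c0 • e0 + c1 • e1 + c2 • e2 + c3 • e3) := by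
    module
  rw [h5, h4, h, smul_zero, sub_zero]

theorem weights_top [IsAlgClosed k] [FiniteDimensional k V] {f f' t : End k V} (hc : f * f' = f' * f)
    (h1 : t * f = f' * t) (h2 : f * t * f' = t) {n : ℕ} (hn : Odd n) (hnk : (n : k) ≠ 0) (hfn : f ^ n = 1)
    (hfn' : f' ^ n = 1) (ht4 : ∀ x, t (t (t (t x))) = x) (hneg : ∀ x, t x = -x → x = 0) : f = 1 := by
  by_contra hne
  -- an eigenvector in the range of `f - 1`
  obtain ⟨a, x1, hx1, hx1a, ha1⟩ : ∃ (a : k) (x1 : V), x1 ≠ 0 ∧ f x1 = a • x1 ∧ a ≠ 1 := by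
    set W : Submodule k V := LinearMap.range (f - 1) with hW
    have hWf : ∀ x ∈ W, f x ∈ W := by
      rintro _ ⟨u, rfl⟩
      refine ⟨f u, ?_⟩
      show f (f u) - f u = f (f u - u)
      rw [map_sub]
    have hWne : W ≠ ⊥ := by
      intro h
      apply hne
      rw [hW, LinearMap.range_eq_bot] at h
      exact sub_eq_zero.1 h
    have hnt : Nontrivial W := Submodule.nontrivial_iff_ne_bot.2 hWne
    obtain ⟨a, ha⟩ := Module.End.exists_eigenvalue (f.restrict hWf)
    obtain ⟨⟨x, hx⟩, hxe⟩ := ha.exists_hasEigenvector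
    have h3 : f x = a • x := congrArg Subtype.val hxe.apply_eq_smul
    have h4 : x ≠ 0 := fun h => hxe.2 (Subtype.ext h)
    refine ⟨a, x, h4, h3, ?_⟩
    rintro rfl
    obtain ⟨u, hu⟩ := hx
    have h5 : (∑ i ∈ Finset.range n, f ^ i) * (f - 1) = 0 := by rw [geom_sum_mul, hfn, sub_self]
    have h6 : (∑ i ∈ Finset.range n, f ^ i) x = 0 := by
      rw [← hu]
      exact congrArg (fun g : End k V => g u) h5
    have h7 : (∑ i ∈ Finset.range n, f ^ i) x = (n : k) • x := by
      rw [LinearMap.sum_apply, Finset.sum_congr rfl (fun i _ => pow_eig h3 i)]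
      simp only [one_pow, one_smul]
      rw [Finset.sum_const, Finset.card_range, ← Nat.cast_smul_eq_nsmul k n x]
    rw [h6] at h7
    rcases smul_eq_zero.1 h7.symm with h | h
    · exact hnk h
    · exact h4 h
  obtain ⟨b, x, hx, hxa, hxb⟩ : ∃ (b : k) (x : V), x ≠ 0 ∧ f x = a • x ∧ f' x = b • x := by
    set W : Submodule k V := LinearMap.ker (f - algebraMap k (End k V) a) with hW
    have hWm : ∀ x, x ∈ W ↔ f x = a • x := by
      intro x
      rw [hW, LinearMap.mem_ker, LinearMap.sub_apply, Module.algebraMap_end_apply, sub_eq_zero]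
    have hWf : ∀ x ∈ W, f' x ∈ W := by
      intro y hy
      rw [hWm] at hy ⊢
      have h3 : f (f' y) = f' (f y) := congrArg (fun g : End k V => g y) hc
      rw [h3, hy, map_smul]
    have hWne : W ≠ ⊥ := by
      intro h
      have h3 : x1 ∈ W := (hWm x1).2 hx1a
      rw [h, Submodule.mem_bot] at h3
      exact hx1 h3
    have hnt : Nontrivial W := Submodule.nontrivial_iff_ne_bot.2 hWne
    obtain ⟨b, hb⟩ := Module.End.exists_eigenvalue (f'.restrict hWf)
    obtain ⟨⟨x, hx⟩, hxe⟩ := hb.exists_hasEigenvector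
    exact ⟨b, x, fun h => hxe.2 (Subtype.ext h), (hWm x).1 hx, congrArg Subtype.val hxe.apply_eq_smul⟩
  have han : a ^ n = 1 := by
    have h3 := pow_eig hxa n
    rw [hfn, Module.End.one_apply] at h3
    have h4 : (a ^ n - 1) • x = 0 := by rw [sub_smul, ← h3, one_smul, sub_self]
    rcases smul_eq_zero.1 h4 with h | h
    · exact sub_eq_zero.1 h
    · exact absurd h hx
  have hbn : b ^ n = 1 := by
    have h3 := pow_eig hxb n
    rw [hfn', Module.End.one_apply] at h3
    have h4 : (b ^ n - 1) • x = 0 := by rw [sub_smul, ← h3, one_smul, sub_self]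
    rcases smul_eq_zero.1 h4 with h | h
    · exact sub_eq_zero.1 h
    · exact absurd h hx
  have hn0 : n ≠ 0 := by rintro rfl; exact (Nat.not_odd_zero hn)
  have ha0 : a ≠ 0 := by rintro rfl; rw [zero_pow hn0] at han; exact zero_ne_one han
  have hb0 : b ≠ 0 := by rintro rfl; rw [zero_pow hn0] at hbn; exact zero_ne_one hbn
  have haa : a ≠ a⁻¹ := by
    intro h
    apply ha1
    refine odd_eq_one hn han ?_
    nth_rw 2 [h]
    exact mul_inv_cancel₀ ha0
  obtain ⟨g1, g1'⟩ := step_e h1 h2 hb0 hxa hxb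
  obtain ⟨g2, g2'⟩ := step_e h1 h2 ha0 g1 g1'
  obtain ⟨g3, g3'⟩ := step_e h1 h2 (inv_ne_zero hb0) g2 g2'
  rw [inv_inv] at g3
  have hw : t (x - t x + t (t x) - t (t (t x))) = -(x - t x + t (t x) - t (t (t x))) := by
    rw [map_sub, map_add, map_sub, ht4]
    abel
  have hw0 := hneg _ hw
  have hw1 : (1 : k) • x + (-1 : k) • t x + (1 : k) • t (t x) + (-1 : k) • t (t (t x)) = 0 := by
    rw [← hw0]; module
  -- kill `t x`
  obtain ⟨c0, c2, c3, hc0, hs1⟩ : ∃ c0 c2 c3 : k, c0 ≠ 0 ∧ c0 • x + (0 : k) • t x + c2 • t (t x) + c3 • t (t (t x)) = 0 := by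
    by_cases hab : a = b⁻¹
    · have hba : b ≠ a := by
        intro h
        apply haa
        rw [h] at hab
        exact hab
      have h5 := elim a hw1 hxb g1' g2' g3'
      rw [sub_self, mul_zero] at h5
      exact ⟨1 * (b - a), _, _, by rw [one_mul]; exact sub_ne_zero.2 hba, h5⟩
    · have h5 := elim b⁻¹ hw1 hxa g1 g2 g3
      rw [sub_self, mul_zero] at h5
      exact ⟨1 * (a - b⁻¹), _, _, by rw [one_mul]; exact sub_ne_zero.2 hab, h5⟩
  -- kill `t (t x)`
  have hs2 := elim a⁻¹ hs1 hxa g1 g2 g3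
  rw [zero_mul, sub_self, mul_zero] at hs2
  have hd0 : c0 * (a - a⁻¹) ≠ 0 := mul_ne_zero hc0 (sub_ne_zero.2 haa)
  -- kill `t (t (t x))`
  by_cases hab : a = b
  · have hba : b ≠ a⁻¹ := by rw [← hab]; exact haa
    have hs3 := elim a⁻¹ hs2 hxb g1' g2' g3'
    simp only [zero_mul, sub_self, mul_zero, zero_smul, add_zero] at hs3
    rcases smul_eq_zero.1 hs3 with h | h
    · exact mul_ne_zero hd0 (sub_ne_zero.2 hba) h
    · exact hx h
  · have hs3 := elim b hs2 hxa g1 g2 g3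
    simp only [zero_mul, sub_self, mul_zero, zero_smul, add_zero] at hs3
    rcases smul_eq_zero.1 hs3 with h | h
    · exact mul_ne_zero hd0 (sub_ne_zero.2 hab) h
    · exact hx h

/-- the version on an invariant submodule -/
theorem weights [IsAlgClosed k] [FiniteDimensional k V] {X : Submodule k V} {f f' t : End k V}
    (hf : ∀ x ∈ X, f x ∈ X) (hf' : ∀ x ∈ X, f' x ∈ X) (ht : ∀ x ∈ X, t x ∈ X)
    (hc : ∀ x ∈ X, f (f' x) = f' (f x)) (h1 : ∀ x ∈ X, t (f x) = f' (t x)) (h2 : ∀ x ∈ X, f (t (f' x)) = t x)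
    {n : ℕ} (hn : Odd n) (hnk : (n : k) ≠ 0) (hfn : ∀ x ∈ X, (f ^ n) x = x) (hfn' : ∀ x ∈ X, (f' ^ n) x = x)
    (ht4 : ∀ x ∈ X, t (t (t (t x))) = x) (hneg : ∀ x ∈ X, t x = -x → x = 0) : ∀ x ∈ X, f x = x := by
  have hpow : ∀ (g : End k V) (hg : ∀ x ∈ X, g x ∈ X) (m : ℕ) (x : X), (((g.restrict hg) ^ m) x : V) = (g ^ m) x := by
    intro g hg m
    induction m with
    | zero => intro x; rfl
    | succ m ih =>
      intro x
      rw [pow_succ', pow_succ', Module.End.mul_apply, Module.End.mul_apply, ← ih]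
      rfl
  have key : f.restrict hf = 1 := by
    refine weights_top (f := f.restrict hf) (f' := f'.restrict hf') (t := t.restrict ht) ?_ ?_ ?_ hn hnk ?_ ?_ ?_ ?_
    · ext x; exact hc x x.2
    · ext x; exact h1 x x.2
    · ext x; exact h2 x x.2
    · ext x; rw [hpow]; exact hfn x x.2
    · ext x; rw [hpow]; exact hfn' x x.2
    · intro x; apply Subtype.ext; exact ht4 x x.2
    · intro x hx; apply Subtype.ext; exact hneg x x.2 (congrArg Subtype.val hx)
  intro x hx
  exact congrArg (fun g : End k X => ((g ⟨x, hx⟩ : X) : V)) key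

end Cfsg.Agent.H563.RV.LemA
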