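import Cfsg.Agent.H971.RV.Lie
import Cfsg.Agent.H167.EX.OneB
import Cfsg.Agent.H563.RV.LemAGrp
import Cfsg.Agent.H563.RV.LemALin

/-!
# TEAM RV, NRow for the exceptional groups: LEMMA A (helper563)

`lemA` : `R ≤ D.group k` finite of odd order prime to `p ≥ 5`, normalised by the elements `h_s(i)`, `i ^ 2 = -1`, `s` in
the frame `L`; then the involutions `h_s(-1)` centralise `R`.
-/

set_option autoImplicit false
set_option linter.unusedSectionVars false

namespace Cfsg.Agent.H563.RV.LemA

open CoxeterSystem Cfsg Cfsg.Lie Cfsg.Lie.ChevalleyDatum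
open Cfsg.Agent.ChevalleyStructure Cfsg.Agent.ChevalleyStructure.Elts Cfsg.Agent.ChevalleyStructure.CoxeterGeom
  Cfsg.Agent.ChevalleyStructure.CoxeterGeomTypes Cfsg.Agent.ChevalleyStructure.NPerm
open Cfsg.Agent.ChevalleyStructure.LieAbs Cfsg.Agent.ChevalleyStructure.Ring Cfsg.Agent.ChevalleyStructure.JacMain
  Cfsg.Agent.ChevalleyStructure.LieAut Cfsg.Agent.ChevalleyStructure.JacAll
open Cfsg.Agent.Tits.Roots Cfsg.Agent.Tits.Core Cfsg.Agent.Nodes Cfsg.Agent.Nodes.Reps Cfsg.Agent.Nodes.BNOf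
  Cfsg.Agent.Nodes.RGDChev Cfsg.Agent.Nodes.Bruhat Cfsg.Agent.Nodes.NormalForm
open Cfsg.Agent.KFacts.RgdField Cfsg.Agent.KFacts.RgdChevCoord
open Cfsg.Agent.BpExc Cfsg.Agent.BpExc.TorCent Cfsg.Agent.BpExc.TorChev Cfsg.Agent.BpExc.Tow
  Cfsg.Agent.BpExc.TowChev Cfsg.Agent.BpExc.Fr Cfsg.Agent.BpExc.Pair Cfsg.Agent.BpExc.LangFr Cfsg.Agent.GpExc.Field
  Cfsg.Agent.BpExc.TorAll
open Cfsg.Agent.H469.Exc Cfsg.Agent.H469.Exc.SigFr
open scoped commutatorElement
open Cfsg.Agent.Nodes.RGDFoldSL
open Cfsg.Agent.H167.EX Cfsg.Agent.H971.RV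
open Cfsg.Agent.ChevalleyStructure.HMatDiagAll (expo)
open Module Matrix

universe u v

/-! ### the tables -/

/-- the pairing with a block of roots -/
def ex (D : ChevalleyDatum) (s : List ℕ) (r : ℕ) : ℤ := (s.map fun s => expo D s r).sum

theorem ex_single (D : ChevalleyDatum) (s r : ℕ) : ex D [s] r = expo D s r := by
  unfold ex; rw [List.map_cons, List.map_nil, List.sum_cons, List.sum_nil, add_zero]

/-- the frame (a list of blocks) -/
structure Tab (D : ChevalleyDatum) (L : List (List ℕ)) : Prop where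
  lt : ∀ s ∈ L, ∀ a ∈ s, a < D.nroots
  fr : ∀ r < D.nroots, 2 ≤ (L.filter fun s => decide (ex D s r % 2 ≠ 0)).length ∨
    ((∀ s ∈ L, ex D s r % 2 = 0) ∧ (L.filter fun s => decide (ex D s r % 4 ≠ 0)).length = 1)

theorem Tab.one {D : ChevalleyDatum} {L : List (List ℕ)} (T : Tab D L) {r : ℕ} (hr : r < D.nroots) :
    ∃ s ∈ L, ex D s r % 4 ≠ 0 := by
  rcases T.fr r hr with h | ⟨-, h⟩
  · obtain ⟨s, hs⟩ := List.exists_mem_of_length_pos (l := L.filter fun s => decide (ex D s r % 2 ≠ 0)) (by omega)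
    obtain ⟨h1, h2⟩ := List.mem_filter.1 hs
    have h3 := of_decide_eq_true h2
    exact ⟨s, h1, by omega⟩
  · obtain ⟨s, hs⟩ := List.exists_mem_of_length_pos (l := L.filter fun s => decide (ex D s r % 4 ≠ 0)) (by omega)
    obtain ⟨h1, h2⟩ := List.mem_filter.1 hs
    exact ⟨s, h1, of_decide_eq_true h2⟩

theorem Tab.two {D : ChevalleyDatum} {L : List (List ℕ)} (T : Tab D L) {r r' : ℕ} (hr : r < D.nroots) (hr' : r' < D.nroots)
    (ho : ∃ s ∈ L, ex D s r % 2 ≠ 0) (h : ∀ s ∈ L, ex D s r' % 4 = (2 * ex D s r) % 4) : False := by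
  have e : (L.filter fun s => decide (ex D s r' % 4 ≠ 0)) = L.filter fun s => decide (ex D s r % 2 ≠ 0) := by
    refine List.filter_congr fun s hs => ?_
    have h1 := h s hs
    rw [decide_eq_decide]
    omega
  have h2 : 2 ≤ (L.filter fun s => decide (ex D s r % 2 ≠ 0)).length := by
    rcases T.fr r hr with h3 | ⟨h3, -⟩
    · exact h3
    · obtain ⟨s, hs, h4⟩ := ho
      exact absurd (h3 s hs) h4
  rcases T.fr r' hr' with h3 | ⟨-, h3⟩
  · obtain ⟨s, hs⟩ := List.exists_mem_of_length_pos (l := L.filter fun s => decide (ex D s r' % 2 ≠ 0)) (by omega)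
    obtain ⟨h4, h5⟩ := List.mem_filter.1 hs
    have h6 := of_decide_eq_true h5
    have h7 := h s h4
    omega
  · rw [e] at h3
    omega

/-- the boolean check of the frame -/
def frB (D : ChevalleyDatum) (L : List (List ℕ)) : Bool :=
  (L.all fun s => s.all fun a => decide (a < D.nroots)) && (List.range D.nroots).all fun r =>
    decide (2 ≤ (L.filter fun s => decide (ex D s r % 2 ≠ 0)).length) ||
    ((L.all fun s => decide (ex D s r % 2 = 0)) &&
      decide ((L.filter fun s => decide (ex D s r % 4 ≠ 0)).length = 1))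

theorem tab_of {D : ChevalleyDatum} {L : List (List ℕ)} (h : frB D L = true) : Tab D L := by
  unfold frB at h
  rw [Bool.and_eq_true] at h
  refine ⟨fun s hs a ha => of_decide_eq_true (List.all_eq_true.1 (List.all_eq_true.1 h.1 s hs) a ha), fun r hr => ?_⟩
  have h1 := List.all_eq_true.1 h.2 r (List.mem_range.2 hr)
  rw [Bool.or_eq_true, Bool.and_eq_true, decide_eq_true_iff, decide_eq_true_iff] at h1
  rcases h1 with h1 | ⟨h1, h2⟩
  · exact Or.inl h1
  · exact Or.inr ⟨fun s hs => of_decide_eq_true (List.all_eq_true.1 h1 s hs), h2⟩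

/-- distinct roots give distinct functionals -/
structure Dist (D : ChevalleyDatum) : Prop where
  bd : ∀ i < D.rank, ∀ r < D.nroots, -3 ≤ Columns.car D i r ∧ Columns.car D i r ≤ 3
  ne : ∀ r < D.nroots, ∃ i < D.rank, Columns.car D i r ≠ 0
  inj : ∀ r < D.nroots, ∀ r' < D.nroots, r ≠ r' → ∃ i < D.rank, Columns.car D i r - Columns.car D i r' ≠ 0 ∧
    Columns.car D i r - Columns.car D i r' ≠ 5 ∧ Columns.car D i r - Columns.car D i r' ≠ -5

/-- the code of a functional -/
def cd (D : ChevalleyDatum) : ℕ → ℕ → ℕ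
  | 0, _ => 0
  | n + 1, r => (Columns.car D n r + 2).toNat + 5 * cd D n r

theorem cd_eq {D : ChevalleyDatum} {r r' : ℕ} : ∀ {n : ℕ}, (∀ i < n, Columns.car D i r = Columns.car D i r') →
    cd D n r = cd D n r'
  | 0, _ => rfl
  | n + 1, h => by
    show (Columns.car D n r + 2).toNat + 5 * cd D n r = (Columns.car D n r' + 2).toNat + 5 * cd D n r'
    rw [h n (Nat.lt_succ_self n), cd_eq fun i hi => h i (Nat.lt_succ_of_lt hi)]

/-- the boolean check of the bounds -/
def bdB (D : ChevalleyDatum) : Bool :=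
  ((List.range D.rank).all fun i => (List.range D.nroots).all fun r =>
    decide (-2 ≤ Columns.car D i r ∧ Columns.car D i r ≤ 2)) &&
  (List.range D.nroots).all fun r => (List.range D.rank).any fun i => decide (Columns.car D i r ≠ 0)

theorem dist_of {D : ChevalleyDatum} (h : bdB D = true) (h' : ((List.range D.nroots).map (cd D D.rank)).Nodup) :
    Dist D := by
  unfold bdB at h
  rw [Bool.and_eq_true] at h
  have hb : ∀ i < D.rank, ∀ r < D.nroots, -2 ≤ Columns.car D i r ∧ Columns.car D i r ≤ 2 := fun i hi r hr =>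
    of_decide_eq_true (List.all_eq_true.1 (List.all_eq_true.1 h.1 i (List.mem_range.2 hi)) r (List.mem_range.2 hr))
  refine ⟨fun i hi r hr => ?_, fun r hr => ?_, fun r hr r' hr' hne => ?_⟩
  · have := hb i hi r hr
    omega
  · obtain ⟨i, hi, h2⟩ := List.any_eq_true.1 (List.all_eq_true.1 h.2 r (List.mem_range.2 hr))
    exact ⟨i, List.mem_range.1 hi, of_decide_eq_true h2⟩
  · obtain ⟨i, hi, h3⟩ : ∃ i < D.rank, Columns.car D i r ≠ Columns.car D i r' := by
      by_contra hcon
      push Not at hcon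
      exact hne (List.inj_on_of_nodup_map h' (List.mem_range.2 hr) (List.mem_range.2 hr') (cd_eq hcon))
    have h4 := hb i hi r hr
    have h5 := hb i hi r' hr'
    exact ⟨i, hi, by omega, by omega, by omega⟩

/-! ### elements acting trivially on the Cartan subalgebra -/

section Fix

variable {D : ChevalleyDatum} {k : Type u} [Field k]

theorem cast_ne (p : ℕ) [hpp : Fact p.Prime] [CharP k p] (hp5 : 5 ≤ p) {m : ℤ} (hm : m ≠ 0)
    (h4 : -6 ≤ m ∧ m ≤ 6) (h5 : m ≠ 5 ∧ m ≠ -5) : (m : k) ≠ 0 := by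
  intro h
  rw [CharP.intCast_eq_zero_iff k p] at h
  have hp6 : p ≠ 6 := by
    rintro rfl
    exact absurd hpp.out (by norm_num)
  have h1 : p ≤ m.natAbs := Nat.le_of_dvd (Int.natAbs_pos.2 hm) (Int.natCast_dvd.1 h)
  have h2 : p = 5 := by omega
  subst h2
  omega

theorem br_inl (i : Fin D.rank) (w : D.Idx → k) (j : D.Idx) : br D k (Pi.single (Sum.inl i) 1) w j =
    (((Sum.elim (fun _ => (0 : ℤ)) (fun s : Fin D.nroots => Columns.car D i s.val)) j : ℤ) : k) * w j := by
  unfold br
  rw [adv_single_one, adR_def, adA_inl, adH]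
  have h1 : (Matrix.diagonal (Sum.elim (fun _ => (0 : ℤ)) (fun s : Fin D.nroots => Columns.car D i s.val)) :
      Matrix D.Idx D.Idx ℤ).map (Int.castRingHom k) = Matrix.diagonal fun j =>
        (((Sum.elim (fun _ => (0 : ℤ)) (fun s : Fin D.nroots => Columns.car D i s.val)) j : ℤ) : k) := by
    ext a b
    by_cases hab : a = b
    · subst hab; simp
    · simp [hab]
  rw [h1, Matrix.mulVec_diagonal]

/-- **An element acting trivially on the Cartan subalgebra is diagonal.** -/
theorem diag_of_fix (p : ℕ) [Fact p.Prime] [CharP k p] (hp5 : 5 ≤ p) (hD : Dist D)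
    (hl : D ∈ [chevG2, chevB2, chevD4, chevF4, chevE6, chevE7, chevE8]) {g : ↥(D.group k)}
    (hg : ∀ i : Fin D.rank, rho D k g (Pi.single (Sum.inl i) 1) = Pi.single (Sum.inl i) 1) (j j' : D.Idx) (hjj : j ≠ j') :
    ((g : GL D.Idx k) : Matrix D.Idx D.Idx k) j j' = 0 := by
  have e0 : ((g : GL D.Idx k) : Matrix D.Idx D.Idx k) j j' = rho D k g (Pi.single j' 1) j := by
    rw [rho_apply, Matrix.mulVec_single_one]; rfl
  rw [e0]
  rcases j' with i' | r
  · rw [hg, Pi.single_eq_of_ne hjj]
  · set w := rho D k g (Pi.single (Sum.inr r) 1) with hw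
    have h1 : ∀ i : Fin D.rank, br D k (Pi.single (Sum.inl i) 1) w = ((Columns.car D i r.val : ℤ) : k) • w := by
      intro i
      have h2 := rho_br hl g (Pi.single (Sum.inl i) 1) (Pi.single (Sum.inr r) 1)
      rw [hg, ← hw] at h2
      have h3 : br D k (Pi.single (Sum.inl i) 1) (Pi.single (Sum.inr r) 1) =
          ((Columns.car D i r.val : ℤ) : k) • (Pi.single (Sum.inr r) (1 : k) : D.Idx → k) := by
        ext j
        rw [br_inl, Pi.smul_apply, smul_eq_mul]
        by_cases hj : j = Sum.inr r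
        · subst hj; rfl
        · rw [Pi.single_eq_of_ne hj, mul_zero, mul_zero]
      rw [h3, map_smul, ← hw] at h2
      exact h2.symm
    have h2 : ∀ i : Fin D.rank, (((Sum.elim (fun _ => (0 : ℤ)) (fun s : Fin D.nroots => Columns.car D i s.val)) j : ℤ) : k) *
        w j = ((Columns.car D i r.val : ℤ) : k) * w j := by
      intro i
      have h3 := congrFun (h1 i) j
      rw [br_inl, Pi.smul_apply, smul_eq_mul] at h3
      exact h3
    rcases j with j | r'
    · obtain ⟨i, hi, hne⟩ := hD.ne r r.isLt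
      have h3 := h2 ⟨i, hi⟩
      have h4 := hD.bd i hi r r.isLt
      have h5 : ((Columns.car D i r.val : ℤ) : k) * w (Sum.inl j) = 0 := by
        rw [← h3]
        show (((0 : ℤ) : k)) * _ = 0
        rw [Int.cast_zero, zero_mul]
      exact (mul_eq_zero.1 h5).resolve_left (cast_ne p hp5 hne ⟨by omega, by omega⟩ ⟨by omega, by omega⟩)
    · have hrr : r'.val ≠ r.val := fun h => hjj (congrArg Sum.inr (Fin.ext h))
      obtain ⟨i, hi, hne, hne1, hne2⟩ := hD.inj _ r'.isLt _ r.isLt hrr
      have h3 := h2 ⟨i, hi⟩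
      have h4 := hD.bd i hi r r.isLt
      have h4' := hD.bd i hi r' r'.isLt
      have h5 : ((Columns.car D i r'.val - Columns.car D i r.val : ℤ) : k) * w (Sum.inr r') = 0 := by
        rw [Int.cast_sub, sub_mul]
        exact sub_eq_zero.2 h3
      exact (mul_eq_zero.1 h5).resolve_left (cast_ne p hp5 hne ⟨by omega, by omega⟩ ⟨hne1, hne2⟩)

end Fix

/-! ### the main theorem -/

section Main

variable {D : ChevalleyDatum} {l : ℕ} {M : CoxeterMatrix (Fin l)} (hp : IsType D l M) {k : Type u} [Field k]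

/-- the weights of a toral element -/
noncomputable def wt (t : ↥(D.group k)) : D.Idx → k :=
  Sum.elim (fun _ => (1 : k)) (fun r : Fin D.nroots => ch hp (vec D l r) t)

theorem rho_TT (p : ℕ) [Fact p.Prime] [CharP k p] (hk : LocFin k) {t : ↥(D.group k)} (ht : t ∈ TT D k)
    (x : D.Idx → k) (j : D.Idx) : rho D k t x j = wt hp t j * x j := by
  rw [rho_apply, H892.El.coe_TT hp (r := p) hk ht, Matrix.mulVec_diagonal]
  rcases j with j | j <;> rfl

include hp in
theorem comm_TT (p : ℕ) [Fact p.Prime] [CharP k p] (hk : LocFin k) {t g : ↥(D.group k)} (ht : t ∈ TT D k)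
    (hg : ∀ j j', j ≠ j' → ((g : GL D.Idx k) : Matrix D.Idx D.Idx k) j j' = 0) : g * t = t * g := by
  apply Subtype.ext
  apply Units.ext
  show ((g : GL D.Idx k) : Matrix D.Idx D.Idx k) * ((t : GL D.Idx k) : Matrix D.Idx D.Idx k) =
    ((t : GL D.Idx k) : Matrix D.Idx D.Idx k) * ((g : GL D.Idx k) : Matrix D.Idx D.Idx k)
  rw [H892.El.coe_TT hp (r := p) hk ht]
  ext a b
  rw [Matrix.mul_diagonal, Matrix.diagonal_mul]
  by_cases hab : a = b
  · subst hab; rw [mul_comm]
  · rw [hg a b hab, zero_mul, mul_zero]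

/-- the element of a block -/
noncomputable def xb (i : k) (s : List ℕ) : ↥(D.group k) := (s.map (xd hp i)).prod

theorem xb_single (i : k) (s : ℕ) : xb hp i [s] = xd hp i s := by
  unfold xb; rw [List.map_cons, List.map_nil, List.prod_cons, List.prod_nil, mul_one]

theorem xb_mem {i : k} (hi : i ≠ 0) (s : List ℕ) : xb hp i s ∈ TT D k := by
  induction s with
  | nil => exact one_mem _
  | cons a s ih =>
    unfold xb at ih ⊢
    rw [List.map_cons, List.prod_cons]
    exact mul_mem (xd_mem hp hi a) ih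

theorem xb_four {i : k} (hi : i * i = -1) (s : List ℕ) : xb hp i s ^ 4 = 1 := by
  have hi0 : i ≠ 0 := by rintro rfl; rw [mul_zero] at hi; exact one_ne_zero (neg_eq_zero.1 hi.symm)
  induction s with
  | nil => exact one_pow 4
  | cons a s ih =>
    have h3 : Commute (xd hp i a) (xb hp i s) := TT_comm hp _ (xd_mem hp hi0 a) _ (xb_mem hp hi0 s)
    have e : xb hp i (a :: s) = xd hp i a * xb hp i s := by unfold xb; rw [List.map_cons, List.prod_cons]
    rw [e, h3.mul_pow, xd_four hp hi, ih, one_mul]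

theorem ch_xb (p : ℕ) [Fact p.Prime] [CharP k p] (hk : LocFin k) {i : k} (hi : i ≠ 0) {s : List ℕ}
    (h : ∀ a ∈ s, a < D.nroots) {r : ℕ} (hr : r < D.nroots) : ch hp (vec D l r) (xb hp i s) = i ^ ex D s r := by
  induction s with
  | nil =>
    show ch hp (vec D l r) 1 = i ^ (0 : ℤ)
    rw [ch_one hp p hk hr, zpow_zero]
  | cons a s ih =>
    have e : xb hp i (a :: s) = xd hp i a * xb hp i s := by unfold xb; rw [List.map_cons, List.prod_cons]
    have e' : ex D (a :: s) r = expo D a r + ex D s r := by unfold ex; rw [List.map_cons, List.sum_cons]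
    rw [e, e', ch_mul hp p hk hr (xd_mem hp hi a) (xb_mem hp hi s), ih fun b hb => h b (List.mem_cons_of_mem _ hb),
      ch_xd hp p hk hi (h a List.mem_cons_self) hr, zpow_add₀ hi]

/-- the toral 2-group -/
def YY (i : k) (L : List (List ℕ)) : Subgroup ↥(D.group k) := Subgroup.closure {x | ∃ s ∈ L, x = xb hp i s}

theorem YY_le {i : k} (hi0 : i ≠ 0) (L : List (List ℕ)) : YY hp i L ≤ TT D k := by
  refine (Subgroup.closure_le _).2 ?_
  rintro _ ⟨s, -, rfl⟩
  exact xb_mem hp hi0 s

theorem xb_mem_YY (i : k) {L : List (List ℕ)} {s : List ℕ} (hs : s ∈ L) : xb hp i s ∈ YY hp i L :=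
  Subgroup.subset_closure ⟨s, hs, rfl⟩

theorem YY_comm {i : k} (hi0 : i ≠ 0) (L : List (List ℕ)) : ∀ a ∈ YY hp i L, ∀ b ∈ YY hp i L, a * b = b * a :=
  fun a ha b hb => TT_comm hp a (YY_le hp hi0 L ha) b (YY_le hp hi0 L hb)

theorem YY_four {i : k} (hi : i * i = -1) (L : List (List ℕ)) : ∀ a ∈ YY hp i L, a ^ 4 = 1 := by
  have hi0 : i ≠ 0 := by rintro rfl; rw [mul_zero] at hi; exact one_ne_zero (neg_eq_zero.1 hi.symm)
  intro a ha
  unfold YY at ha
  induction ha using Subgroup.closure_induction with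
  | mem x hx =>
    obtain ⟨s, -, rfl⟩ := hx
    exact xb_four hp hi s
  | one => exact one_pow 4
  | mul x y hx hy h1 h2 =>
    have h3 : Commute x y := YY_comm hp hi0 L x hx y hy
    rw [h3.mul_pow, h1, h2, one_mul]
  | inv x _ h1 => rw [inv_pow, h1, inv_one]

theorem odd_one {G : Type*} [Group G] {v : G} {n : ℕ} (hn : Odd n) (h : v ^ n = 1) (h2 : v * v = 1) : v = 1 := by
  obtain ⟨m, rfl⟩ := hn
  rw [pow_succ, pow_mul, pow_two, h2, one_pow, one_mul] at h
  exact h

/-- an element of odd order commuting with the `h_s(i)` is toral -/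
theorem mem_TT_of_YY (p : ℕ) [Fact p.Prime] [CharP k p] (h2 : (2 : k) ≠ 0) (hk : LocFin k) {L : List (List ℕ)} (T : Tab D L)
    {i : k} (hi : i * i = -1) {c : ↥(D.group k)} {m : ℕ} (hm : Odd m) (hcm : c ^ m = 1)
    (hc : ∀ a ∈ YY hp i L, Commute c a) : c ∈ TT D k := by
  have hi0 : i ≠ 0 := by rintro rfl; rw [mul_zero] at hi; exact one_ne_zero (neg_eq_zero.1 hi.symm)
  obtain ⟨j, hj⟩ := pow_mem_set hp hk p (S := {x | ∃ s ∈ L, x = xb hp i s}) (by
    rintro _ ⟨s, -, rfl⟩
    exact xb_mem hp hi0 s) Nat.prime_two (by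
    rintro _ ⟨s, -, rfl⟩
    exact ⟨2, xb_four hp hi s⟩) (g := c) (by
    rintro _ ⟨s, hs, rfl⟩
    exact hc _ (xb_mem_YY hp i hs))
  refine Cfsg.Agent.H167.EX.mem_of_pow hm hcm ((sup_le (RGD.Sup_le fun a ha => ?_) le_rfl : _ ≤ TT D k) hj)
  exfalso
  obtain ⟨b, hb, rfl⟩ := (isRoot_iff hp M.toCoxeterSystem a).1 ha.1
  obtain ⟨s, hs, hne⟩ := T.one hb
  have h3 := ha.2 _ ⟨s, hs, rfl⟩
  rw [ch_xb hp p hk hi0 (T.lt s hs) hb, ← zpow_zero i] at h3
  have h4 := mod_four h2 hi h3
  exact hne (by rw [h4]; rfl)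

theorem conf_false [IsAlgClosed k] (p : ℕ) [Fact p.Prime] [CharP k p] (hp5 : 5 ≤ p) (hk : LocFin k) (hD : Dist D)
    {L : List (List ℕ)} (T : Tab D L) {i : k} (hi : i * i = -1) {R : Subgroup ↥(D.group k)} [Finite R]
    (hodd : Odd (Nat.card R)) (hpR : ¬ p ∣ Nat.card R) {y v : ↥(D.group k)} (hC : Conf (YY hp i L) R y v) : False := by
  have hi0 : i ≠ 0 := by rintro rfl; rw [mul_zero] at hi; exact one_ne_zero (neg_eq_zero.1 hi.symm)
  have h2 : (2 : k) ≠ 0 := by
    have := cast_ne (k := k) p hp5 (m := 2) (by norm_num) ⟨by norm_num, by norm_num⟩ ⟨by norm_num, by norm_num⟩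
    exact_mod_cast this
  set Y := YY hp i L with hY
  have hYT : Y ≤ TT D k := YY_le hp hi0 L
  set n := Nat.card R with hn
  have hnk : (n : k) ≠ 0 := by
    rw [Ne, CharP.cast_eq_zero_iff k p]
    exact hpR
  have hpow : ∀ g ∈ R, g ^ n = 1 := by
    intro g hg
    have h1 : (⟨g, hg⟩ : R) ^ n = 1 := pow_card_eq_one'
    exact congrArg Subtype.val h1
  obtain ⟨v', hv'⟩ : ∃ v', v' = y * v * y⁻¹ := ⟨_, rfl⟩
  obtain ⟨c, hc⟩ : ∃ c, c = ⁅v, y * v * y⁻¹⁆ := ⟨_, rfl⟩
  have hcv := hC.cv
  have hcv' := hC.cv'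
  have hcY := hC.cY
  have hcyc := hC.cyc
  rw [← hc] at hcv hcv' hcY
  simp only [← hv'] at hcv' hcyc
  rw [← hv'] at hc
  have hvn := hpow v hC.hv
  have hv'n : v' ^ n = 1 := by rw [hv']; exact hpow _ hC.hv'
  have hcR : c ∈ R := by
    rw [hc, commutatorElement_def, hv']
    exact R.mul_mem (R.mul_mem (R.mul_mem hC.hv hC.hv') (R.inv_mem hC.hv)) (R.inv_mem hC.hv')
  have hcT : c ∈ TT D k := mem_TT_of_YY hp p h2 hk T hi hodd (hpow c hcR) hcY
  have hyT := hYT hC.hy
  have hy4 : y ^ 4 = 1 := YY_four hp hi L y hC.hy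
  -- relations
  have hyv : y * v = v' * y := by rw [hv']; group
  have hyv' : y * v' * y⁻¹ = v⁻¹ := by
    rw [← hC.inv, hv', _root_.mul_inv_rev]
    simp only [mul_assoc]
  have hrel : v * y * v' = y := by
    have h3 : y * v' = v⁻¹ * y := by rw [← hyv']; group
    rw [mul_assoc, h3, mul_inv_cancel_left]
  -- the module
  let X : Submodule k (D.Idx → k) :=
    { carrier := {x | rho D k c x = x ∧ ∀ a ∈ Y, Commute a v → Commute a v' → rho D k a x = x}
      add_mem' := by
        rintro x x' ⟨h3, h4⟩ ⟨h5, h6⟩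
        exact ⟨by rw [map_add, h3, h5], fun a ha hav hav' => by rw [map_add, h4 a ha hav hav', h6 a ha hav hav']⟩
      zero_mem' := ⟨map_zero _, fun a _ _ _ => map_zero _⟩
      smul_mem' := by
        rintro b x ⟨h3, h4⟩
        exact ⟨by rw [map_smul, h3], fun a ha hav hav' => by rw [map_smul, h4 a ha hav hav']⟩ }
  have hXm : ∀ x, x ∈ X ↔ (rho D k c x = x ∧ ∀ a ∈ Y, Commute a v → Commute a v' → rho D k a x = x) := fun _ => Iff.rfl
  have hmul : ∀ (g h : ↥(D.group k)) (x : D.Idx → k), rho D k (g * h) x = rho D k g (rho D k h x) := by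
    intro g h x; rw [map_mul]; rfl
  have hinvX : ∀ g : ↥(D.group k), Commute c g → (∀ a ∈ Y, Commute a v → Commute a v' → Commute a g) →
      ∀ x ∈ X, rho D k g x ∈ X := by
    intro g h3 h4 x hx
    rw [hXm] at hx ⊢
    refine ⟨?_, fun a ha hav hav' => ?_⟩
    · rw [← hmul, h3.eq, hmul, hx.1]
    · rw [← hmul, (h4 a ha hav hav').eq, hmul, hx.2 a ha hav hav']
  have hXv := hinvX v hcv fun a _ h _ => h
  have hXv' := hinvX v' hcv' fun a _ _ h => h
  have hXy := hinvX y (hcY y hC.hy) fun a ha _ _ => YY_comm hp hi0 L a ha y hC.hy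
  -- the Cartan subalgebra
  have hH : ∀ j : Fin D.rank, (Pi.single (Sum.inl j) (1 : k) : D.Idx → k) ∈ X := by
    intro j
    have h3 : ∀ t ∈ TT D k, rho D k t (Pi.single (Sum.inl j) (1 : k)) = Pi.single (Sum.inl j) (1 : k) := by
      intro t ht
      ext j'
      rw [rho_TT hp p hk ht]
      by_cases hj : j' = Sum.inl j
      · subst hj
        show (1 : k) * _ = _
        rw [one_mul]
      · rw [Pi.single_eq_of_ne hj, mul_zero]
    exact (hXm _).2 ⟨h3 c hcT, fun a ha _ _ => h3 a (hYT ha)⟩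
  -- `v` is trivial on `X`
  have hvX : ∀ x ∈ X, rho D k v x = x := by
    by_cases hz : ∀ x ∈ X, rho D k (y * y) x = x
    · intro x hx
      have h3 : rho D k v x ∈ X := hXv x hx
      have h4 : v * (y * y) * v = y * y := by
        have h5 : (y * y) * v = v⁻¹ * (y * y) := by rw [← hC.inv]; group
        rw [mul_assoc, h5, mul_inv_cancel_left]
      have h5 : rho D k v (rho D k v x) = x := by
        have h6 := hmul (v * (y * y)) v x
        rw [h4, hz x hx, hmul, hz _ h3] at h6
        exact h6.symm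
      obtain ⟨m, hm⟩ := hodd
      have h6 : ∀ m : ℕ, rho D k (v ^ (2 * m)) x = x := by
        intro m
        induction m with
        | zero => rw [mul_zero, pow_zero, map_one]; rfl
        | succ m ih =>
          have : v ^ (2 * (m + 1)) = v * (v * v ^ (2 * m)) := by
            rw [show 2 * (m + 1) = 2 * m + 1 + 1 by ring, _root_.pow_succ', _root_.pow_succ']
          rw [this, hmul, hmul, ih, h5]
      have h7 : v = v ^ (2 * (m + 1)) := by
        have : 2 * (m + 1) = n + 1 := by omega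
        rw [this, pow_succ, hvn, one_mul]
      rw [h7]
      exact h6 _
    · push Not at hz
      obtain ⟨x0, hx0, hzx0⟩ := hz
      refine weights (X := X) (f := rho D k v) (f' := rho D k v') (t := rho D k y) hXv hXv' hXy ?_ ?_ ?_ hodd hnk
        ?_ ?_ ?_ ?_
      · intro x hx
        have h3 : v * v' = c * (v' * v) := by rw [hc, commutatorElement_def]; group
        rw [← hmul, h3, hmul, hmul]
        exact ((hXm _).1 (hXv' _ (hXv x hx))).1
      · intro x _
        rw [← hmul, hyv, hmul]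
      · intro x _
        rw [← hmul, ← hmul, hrel]
      · intro x _
        rw [← map_pow, hvn, map_one]; rfl
      · intro x _
        rw [← map_pow, hv'n, map_one]; rfl
      · intro x _
        rw [← hmul, ← hmul, ← hmul]
        have : y * y * y * y = y ^ 4 := by simp only [pow_succ, pow_zero, one_mul]
        rw [this, hy4, map_one]; rfl
      · -- no eigenvalue `-1`
        intro x hx hxy
        by_contra hxne
        -- the root of `x0`
        obtain ⟨j0, hj0⟩ := Function.ne_iff.1 hzx0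
        rw [rho_TT hp p hk (mul_mem hyT hyT)] at hj0
        obtain ⟨j1, hj1⟩ := Function.ne_iff.1 hxne
        have hj1' : wt hp y j1 = -1 := by
          have h3 := congrFun hxy j1
          rw [rho_TT hp p hk hyT, Pi.neg_apply] at h3
          have h4 : (wt hp y j1 + 1) * x j1 = 0 := by rw [add_mul, one_mul, h3]; ring
          exact eq_neg_of_add_eq_zero_left ((mul_eq_zero.1 h4).resolve_right hj1)
        have hK : ∀ (x : D.Idx → k), x ∈ X → ∀ j, x j ≠ 0 → ∀ a ∈ Y, Commute a v → Commute a v' → wt hp a j = 1 := by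
          intro x hx j hj a ha hav hav'
          have h3 := congrFun (((hXm x).1 hx).2 a ha hav hav') j
          rw [rho_TT hp p hk (hYT ha)] at h3
          have h4 : (wt hp a j - 1) * x j = 0 := by rw [sub_mul, one_mul, h3, sub_self]
          exact sub_eq_zero.1 ((mul_eq_zero.1 h4).resolve_right hj)
        rcases j1 with j1 | r1
        · have h3 : (1 : k) = -1 := hj1'
          apply h2
          linear_combination h3
        rcases j0 with j0 | r0
        · exact hj0 (one_mul _)
        have hx0r : x0 (Sum.inr r0) ≠ 0 := by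
          intro h
          apply hj0
          rw [h, mul_zero]
        have hw0 : wt hp (y * y) (Sum.inr r0) ≠ 1 := by
          intro h
          apply hj0
          rw [h, one_mul]
        -- weights
        have hwm : ∀ a ∈ Y, ∀ b ∈ Y, ∀ r : Fin D.nroots, wt hp (a * b) (Sum.inr r) = wt hp a (Sum.inr r) * wt hp b (Sum.inr r) :=
          fun a ha b hb r => ch_mul hp p hk r.isLt (hYT ha) (hYT hb)
        have hwp : ∀ a ∈ Y, ∀ r : Fin D.nroots, ∀ m : ℕ, wt hp (a ^ m) (Sum.inr r) = wt hp a (Sum.inr r) ^ m :=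
          fun a ha r m => ch_pow hp p hk r.isLt (hYT ha) m
        have hw4 : wt hp y (Sum.inr r0) ^ 4 = 1 := by
          rw [← hwp y hC.hy, hy4]
          exact ch_one hp p hk r0.isLt
        have hw2 : wt hp y (Sum.inr r0) ^ 2 = -1 := by
          rw [hwm y hC.hy y hC.hy] at hw0
          have h3 : (wt hp y (Sum.inr r0) * wt hp y (Sum.inr r0) - 1) * (wt hp y (Sum.inr r0) ^ 2 + 1) = 0 := by
            linear_combination hw4
          exact eq_neg_of_add_eq_zero_left ((mul_eq_zero.1 h3).resolve_left (sub_ne_zero.2 hw0))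
        have hkey : ∀ a ∈ Y, wt hp a (Sum.inr r1) = wt hp a (Sum.inr r0) ^ 2 := by
          intro a ha
          obtain ⟨m, hm1, hm2⟩ := hcyc a ha
          have hma : y ^ m * a ∈ Y := Y.mul_mem (Y.pow_mem hC.hy m) ha
          have h3 := hK x hx _ hj1 _ hma hm1 hm2
          have h4 := hK x0 hx0 _ hx0r _ hma hm1 hm2
          rw [hwm _ (Y.pow_mem hC.hy m) _ ha, hwp y hC.hy] at h3 h4
          rw [hj1'] at h3
          have h5 : (-1 : k) ^ m * wt hp a (Sum.inr r0) ^ 2 = 1 := by
            have h6 : (wt hp y (Sum.inr r0) ^ m * wt hp a (Sum.inr r0)) ^ 2 = 1 := by rw [h4, one_pow]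
            rw [mul_pow, ← pow_mul, mul_comm m 2, pow_mul, hw2] at h6
            exact h6
          have h7 : (-1 : k) ^ m ≠ 0 := pow_ne_zero _ (neg_ne_zero.2 one_ne_zero)
          exact mul_left_cancel₀ h7 (h3.trans h5.symm)
        refine T.two (r := r0) (r' := r1) r0.isLt r1.isLt ?_ ?_
        · by_contra hcon
          push Not at hcon
          apply hw0
          have h3 : ∀ a ∈ Y, wt hp a (Sum.inr r0) ^ 2 = 1 := by
            intro a ha
            rw [hY] at ha
            unfold YY at ha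
            induction ha using Subgroup.closure_induction with
            | mem b hb =>
              obtain ⟨s, hs, rfl⟩ := hb
              show ch hp (vec D l r0) (xb hp i s) ^ 2 = 1
              rw [ch_xb hp p hk hi0 (T.lt s hs) r0.isLt, i_sq hi]
              exact Even.neg_one_zpow (Int.even_iff.2 (hcon s hs))
            | one =>
              show ch hp (vec D l r0) 1 ^ 2 = 1
              rw [ch_one hp p hk r0.isLt, one_pow]
            | mul a b ha hb h3 h4 =>
              rw [hwm a ha b hb, mul_pow, h3, h4, one_mul]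
            | inv a ha h3 =>
              have h4 : wt hp a⁻¹ (Sum.inr r0) * wt hp a (Sum.inr r0) = 1 := by
                rw [← hwm _ (Y.inv_mem ha) _ ha, inv_mul_cancel]
                exact ch_one hp p hk r0.isLt
              have h5 : (wt hp a⁻¹ (Sum.inr r0) * wt hp a (Sum.inr r0)) ^ 2 = 1 := by rw [h4, one_pow]
              rw [mul_pow, h3, mul_one] at h5
              exact h5
          rw [hwm y hC.hy y hC.hy, ← pow_two]
          exact h3 y hC.hy
        · intro s hs
          have h3 := hkey _ (xb_mem_YY hp i hs)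
          have h4 : i ^ ex D s r1 = i ^ (2 * ex D s r0) := by
            have h5 : wt hp (xb hp i s) (Sum.inr r1) = i ^ ex D s r1 := ch_xb hp p hk hi0 (T.lt s hs) r1.isLt
            have h6 : wt hp (xb hp i s) (Sum.inr r0) = i ^ ex D s r0 := ch_xb hp p hk hi0 (T.lt s hs) r0.isLt
            rw [h5, h6, ← _root_.zpow_natCast, ← _root_.zpow_mul, mul_comm] at h3
            exact h3
          exact mod_four h2 hi h4
  -- `v` is diagonal
  have hdiag := diag_of_fix p hp5 hD hp.inList (g := v) fun j => hvX _ (hH j)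
  have h3 := comm_TT hp p hk (mul_mem hyT hyT) hdiag
  have h4 : (y * y) * v * (y * y)⁻¹ = v := by rw [← h3]; group
  have h5 := hC.inv
  rw [h4] at h5
  refine hC.ne (odd_one hodd hvn ?_)
  nth_rw 1 [h5]
  exact inv_mul_cancel v

/-- **LEMMA A.** (blocks: `xb hp i [s] = h_s(i)`) -/
theorem lemA [IsAlgClosed k] (p : ℕ) [Fact p.Prime] [CharP k p] (hp5 : 5 ≤ p) (hk : LocFin k) (hD : Dist D)
    {L : List (List ℕ)} (T : Tab D L) {i : k} (hi : i * i = -1) {R : Subgroup ↥(D.group k)} [Finite R]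
    (hodd : Odd (Nat.card R)) (hpR : ¬ p ∣ Nat.card R)
    (hn : ∀ s ∈ L, ∀ g ∈ R, xb hp i s * g * (xb hp i s)⁻¹ ∈ R) :
    ∀ s ∈ L, ∀ g ∈ R, (xb hp i s * xb hp i s) * g = g * (xb hp i s * xb hp i s) := by
  have hi0 : i ≠ 0 := by rintro rfl; rw [mul_zero] at hi; exact one_ne_zero (neg_eq_zero.1 hi.symm)
  intro s hs g hg
  by_contra hne
  have hnY : ∀ a ∈ YY hp i L, ∀ g ∈ R, a * g * a⁻¹ ∈ R := by
    intro a ha
    unfold YY at ha
    induction ha using Subgroup.closure_induction with
    | mem x hx =>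
      obtain ⟨s, hs, rfl⟩ := hx
      exact hn s hs
    | one => intro g hg; simpa using hg
    | mul x y _ _ h1 h2 =>
      intro g hg
      have h3 := h1 _ (h2 g hg)
      have e : x * y * g * (x * y)⁻¹ = x * (y * g * y⁻¹) * x⁻¹ := by group
      rw [e]; exact h3
    | inv x _ h1 =>
      intro g hg
      -- conjugation by `x` is a bijection of the finite group `R`
      let f : R → R := fun r => ⟨x * r * x⁻¹, h1 r r.2⟩
      have hf : Function.Injective f := by
        intro a b hab
        have h3 : x * (a : ↥(D.group k)) * x⁻¹ = x * b * x⁻¹ := congrArg Subtype.val hab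
        exact Subtype.ext (mul_left_cancel (mul_right_cancel h3))
      obtain ⟨⟨g', hg'⟩, h3⟩ := (Finite.injective_iff_surjective.1 hf) ⟨g, hg⟩
      have h4 : x * g' * x⁻¹ = g := congrArg Subtype.val h3
      rw [← h4]
      have e : x⁻¹ * (x * g' * x⁻¹) * x⁻¹⁻¹ = g' := by group
      rw [e]; exact hg'
  obtain ⟨y, v, hC⟩ := exists_conf (YY_comm hp hi0 L) (YY_four hp hi L) (Nat.card R) R le_rfl hodd hnY
    (xb_mem_YY hp i hs) hg hne
  exact conf_false hp p hp5 hk hD T hi hodd hpR hC

end Main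

end Cfsg.Agent.H563.RV.LemA
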