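import Cfsg.Agent.H563.RV.LemATab

/-!
# TEAM RV, NRow for the exceptional groups: LEMMA A, the conjugate form (helper563)

`lemA_conj` : the elements `g * (∏ ph_s (A s)) * g⁻¹` (blocks; `A s` arbitrary with `A s ^ 2 = -1`) normalise `R`; then
their squares centralise `R`.  `lemA_single` : blocks of length one.
-/

set_option autoImplicit false
set_option linter.unusedSectionVars false
set_option linter.unnecessarySeqFocus false

namespace Cfsg.Agent.H563.RV.LemA

open CoxeterSystem Cfsg Cfsg.Lie Cfsg.Lie.ChevalleyDatum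
open Cfsg.Agent.ChevalleyStructure Cfsg.Agent.ChevalleyStructure.Elts Cfsg.Agent.ChevalleyStructure.CoxeterGeom
  Cfsg.Agent.ChevalleyStructure.CoxeterGeomTypes Cfsg.Agent.ChevalleyStructure.NPerm
open Cfsg.Agent.Tits.Roots Cfsg.Agent.Tits.Core Cfsg.Agent.Nodes Cfsg.Agent.Nodes.Reps Cfsg.Agent.Nodes.BNOf
  Cfsg.Agent.Nodes.RGDChev Cfsg.Agent.Nodes.Bruhat Cfsg.Agent.Nodes.NormalForm
open Cfsg.Agent.KFacts.RgdField Cfsg.Agent.KFacts.RgdChevCoord
open Cfsg.Agent.BpExc Cfsg.Agent.BpExc.TorCent Cfsg.Agent.BpExc.TorChev Cfsg.Agent.BpExc.Tow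
  Cfsg.Agent.BpExc.TowChev Cfsg.Agent.BpExc.Fr Cfsg.Agent.BpExc.Pair Cfsg.Agent.BpExc.LangFr Cfsg.Agent.GpExc.Field
  Cfsg.Agent.BpExc.TorAll
open Cfsg.Agent.H469.Exc Cfsg.Agent.H469.Exc.SigFr
open Cfsg.Agent.Nodes.RGDFoldSL
open Cfsg.Agent.H167.EX Cfsg.Agent.H971.RV

universe u v

/-! ### elements of `SL₂` with square `-1` -/

theorem inv_i {k : Type u} [Field k] {i : k} (hi : i * i = -1) : i⁻¹ = -i := by
  have hi0 : i ≠ 0 := by rintro rfl; rw [mul_zero] at hi; exact one_ne_zero (neg_eq_zero.1 hi.symm)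
  rw [inv_eq_iff_eq_inv, ← neg_inv]
  exact eq_neg_of_add_eq_zero_left (by
    field_simp
    linear_combination hi)

theorem sl_conj {k : Type u} [Field k] (h2 : (2 : k) ≠ 0) {i : k} (hi : i * i = -1) {A : SL k}
    (hA : A * A = hS (-1)) : ∃ P : SL k, A = P * hS i * P⁻¹ := by
  have hi0 : i ≠ 0 := by rintro rfl; rw [mul_zero] at hi; exact one_ne_zero (neg_eq_zero.1 hi.symm)
  have hii := inv_i hi
  obtain ⟨e1, e2, e3, e4⟩ := hS_entries (neg_ne_zero.2 (one_ne_zero (α := k)))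
  have m1 := congrArg (fun B : SL k => B.1 0 0) hA
  have m2 := congrArg (fun B : SL k => B.1 0 1) hA
  have m3 := congrArg (fun B : SL k => B.1 1 0) hA
  have m4 := congrArg (fun B : SL k => B.1 1 1) hA
  simp only [mul00, mul01, mul10, mul11, e1, e2, e3, e4, inv_neg, inv_one] at m1 m2 m3 m4
  have hd := A.det_coe
  rw [Matrix.det_fin_two] at hd
  suffices H : ∃ P : SL k, (A : Matrix (Fin 2) (Fin 2) k) * P = P * !![i, 0; 0, i⁻¹] by
    obtain ⟨P, h6⟩ := H
    refine ⟨P, eq_mul_inv_of_mul_eq (Subtype.ext ?_)⟩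
    rw [Matrix.SpecialLinearGroup.coe_mul, Matrix.SpecialLinearGroup.coe_mul, coe_hS hi0, h6]
  obtain ⟨a, ha⟩ : ∃ a, a = A.1 0 0 := ⟨_, rfl⟩
  obtain ⟨b, hb⟩ : ∃ b, b = A.1 0 1 := ⟨_, rfl⟩
  obtain ⟨c, hc⟩ : ∃ c, c = A.1 1 0 := ⟨_, rfl⟩
  obtain ⟨d, hdd⟩ : ∃ d, d = A.1 1 1 := ⟨_, rfl⟩
  have hAm : (A : Matrix (Fin 2) (Fin 2) k) = !![a, b; c, d] := by
    ext x y
    fin_cases x <;> fin_cases y
    · exact ha.symm
    · exact hb.symm
    · exact hc.symm
    · exact hdd.symm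
  have hd' : a * d - b * c = 1 := by rw [ha, hb, hc, hdd]; exact hd
  clear hd
  have hd := hd'
  simp only [← ha, ← hb, ← hc, ← hdd] at m1 m2 m3 m4
  have htr : d = -a := by
    linear_combination d * m1 - c * m2 - a * hd
  subst htr
  rw [hAm]
  by_cases hc0 : c = 0
  · have haa : (a - i) * (a + i) = 0 := by
      rw [hc0] at m1
      linear_combination m1 - hi
    rcases mul_eq_zero.1 haa with h | h
    · have hai : a = i := sub_eq_zero.1 h
      refine ⟨⟨!![1, -b / (2 * i); 0, 1], by rw [Matrix.det_fin_two_of]; ring⟩, ?_⟩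
      show !![a, b; c, -a] * !![1, -b / (2 * i); 0, 1] = !![1, -b / (2 * i); 0, 1] * !![i, 0; 0, i⁻¹]
      rw [hii, hai, hc0]
      ext x y
      fin_cases x <;> fin_cases y <;> simp [Matrix.mul_apply, Fin.sum_univ_two] <;> field_simp <;> ring
    · have hai : a = -i := eq_neg_of_add_eq_zero_left h
      refine ⟨⟨!![b / (2 * i), -1; 1, 0], by rw [Matrix.det_fin_two_of]; ring⟩, ?_⟩
      show !![a, b; c, -a] * !![b / (2 * i), -1; 1, 0] = !![b / (2 * i), -1; 1, 0] * !![i, 0; 0, i⁻¹]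
      rw [hii, hai, hc0]
      ext x y
      fin_cases x <;> fin_cases y <;> simp [Matrix.mul_apply, Fin.sum_univ_two] <;> field_simp <;> ring
  · refine ⟨⟨!![a + i, (a - i) / (2 * i * c); c, 1 / (2 * i)], by
      rw [Matrix.det_fin_two_of]; field_simp; ring⟩, ?_⟩
    show !![a, b; c, -a] * !![a + i, (a - i) / (2 * i * c); c, 1 / (2 * i)] =
      !![a + i, (a - i) / (2 * i * c); c, 1 / (2 * i)] * !![i, 0; 0, i⁻¹]
    rw [hii]
    ext x y
    fin_cases x <;> fin_cases y <;> simp [Matrix.mul_apply, Fin.sum_univ_two] <;> field_simp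
    · linear_combination m1 - hi
    · linear_combination m1 - hi
    · ring
    · ring

/-! ### commuting root subgroups -/

variable {D : ChevalleyDatum} {l : ℕ} {M : CoxeterMatrix (Fin l)} (hp : IsType D l M) {k : Type u} [Field k]

/-- `ph`, without the bound -/
noncomputable def pz (a : ℕ) (B : SL k) : ↥(D.group k) := if h : a < D.nroots then ph hp k h B else 1

theorem pz_lt {a : ℕ} (h : a < D.nroots) (B : SL k) : pz hp a B = ph hp k h B := dif_pos h

theorem xd_eq_pz (i : k) (a : ℕ) : xd hp i a = pz hp a (hS i) := rfl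

/-- the roots of the frame are strongly orthogonal -/
def ortB (D : ChevalleyDatum) (F : List ℕ) : Bool :=
  (F.all fun b => F.all fun c => decide (c = b) || (decide (c ≠ D.neg b) && (D.commTerms b c).isEmpty &&
    (D.commTerms (D.neg b) c).isEmpty && (D.commTerms b (D.neg c)).isEmpty &&
    (D.commTerms (D.neg b) (D.neg c)).isEmpty)) && decide F.Nodup && F.all fun b => decide (b < D.nroots)

/-- the roots of the frame are strongly orthogonal -/
structure Ort (F : List ℕ) : Prop where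
  lt : ∀ a ∈ F, a < D.nroots
  nodup : F.Nodup
  comm : ∀ a ∈ F, ∀ b ∈ F, b ≠ a → ∀ (A B : SL k), Commute (pz hp b B) (pz hp a A)

theorem ort_of {F : List ℕ} (h : ortB D F = true) : Ort hp (k := k) F := by
  unfold ortB at h
  rw [Bool.and_eq_true, Bool.and_eq_true, decide_eq_true_iff] at h
  have hlt : ∀ a ∈ F, a < D.nroots := fun a ha => of_decide_eq_true (List.all_eq_true.1 h.2 a ha)
  refine ⟨hlt, h.1.2, fun a ha b hb hne A B => ?_⟩
  have h1 := List.all_eq_true.1 (List.all_eq_true.1 h.1.1 a ha) b hb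
  simp only [Bool.or_eq_true, Bool.and_eq_true, decide_eq_true_iff] at h1
  rcases h1 with h1 | ⟨⟨⟨⟨h2, h3⟩, h4⟩, h5⟩, h6⟩
  · exact absurd h1 hne
  · rw [pz_lt hp (hlt a ha), pz_lt hp (hlt b hb)]
    have h7 := ph_comm hp (k := k) (hlt a ha) (hlt b hb) hne h2 h3 h4 h5 h6 ⟨B, rfl⟩
    exact ((Subgroup.mem_centralizer_iff.1 h7) _ ⟨A, rfl⟩).symm

theorem pz_mul (a : ℕ) (A B : SL k) : pz hp a (A * B) = pz hp a A * pz hp a B := by
  unfold pz
  split_ifs
  · rw [map_mul]
  · rw [mul_one]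

theorem pz_inv (a : ℕ) (A : SL k) : pz hp a A⁻¹ = (pz hp a A)⁻¹ := by
  unfold pz
  split_ifs
  · rw [map_inv]
  · rw [inv_one]

theorem exists_h {F : List ℕ} (hF : Ort hp (k := k) F) (P : ℕ → SL k) : ∀ F' : List ℕ, F' ⊆ F → F'.Nodup →
    ∃ h : ↥(D.group k), (∀ a ∈ F', ∀ B : SL k, h * pz hp a B * h⁻¹ = pz hp a (P a * B * (P a)⁻¹)) ∧
      ∀ x : ↥(D.group k), (∀ a ∈ F', ∀ B : SL k, Commute x (pz hp a B)) → Commute x h := by
  intro F'
  induction F' with
  | nil => exact fun _ _ => ⟨1, fun a ha => absurd ha List.not_mem_nil, fun x _ => Commute.one_right x⟩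
  | cons s F' ih =>
    intro hsub hnd
    obtain ⟨h', h1, h2⟩ := ih (fun a ha => hsub (List.mem_cons_of_mem _ ha)) (List.nodup_cons.1 hnd).2
    have hsn := (List.nodup_cons.1 hnd).1
    refine ⟨pz hp s (P s) * h', fun a ha B => ?_, fun x hx => ?_⟩
    · rcases List.mem_cons.1 ha with rfl | ha
      · have h3 : Commute (pz hp a B) h' := h2 _ fun b hb C => by
          have hne : a ≠ b := by rintro rfl; exact hsn hb
          exact hF.comm b (hsub (List.mem_cons_of_mem _ hb)) a (hsub List.mem_cons_self) hne C B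
        rw [pz_mul, pz_mul, pz_inv]
        calc pz hp a (P a) * h' * pz hp a B * (pz hp a (P a) * h')⁻¹
            = pz hp a (P a) * (h' * pz hp a B) * h'⁻¹ * (pz hp a (P a))⁻¹ := by group
          _ = _ := by rw [← h3.eq]; group
      · have hne : s ≠ a := by rintro rfl; exact hsn ha
        have h3 : Commute (pz hp s (P s)) (pz hp a (P a * B * (P a)⁻¹)) :=
          hF.comm a (hsub (List.mem_cons_of_mem _ ha)) s (hsub List.mem_cons_self) hne _ _
        calc pz hp s (P s) * h' * pz hp a B * (pz hp s (P s) * h')⁻¹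
            = pz hp s (P s) * (h' * pz hp a B * h'⁻¹) * (pz hp s (P s))⁻¹ := by group
          _ = _ := by rw [h1 a ha, h3.eq]; group
    · exact (hx s List.mem_cons_self _).mul_right (h2 x fun a ha B => hx a (List.mem_cons_of_mem _ ha) B)

/-- the product over a block -/
noncomputable def blk (A : ℕ → SL k) (s : List ℕ) : ↥(D.group k) := (s.map fun a => pz hp a (A a)).prod

theorem blk_cons (A : ℕ → SL k) (a : ℕ) (s : List ℕ) : blk hp A (a :: s) = pz hp a (A a) * blk hp A s := by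
  unfold blk; rw [List.map_cons, List.prod_cons]

theorem blk_single (A : ℕ → SL k) (a : ℕ) : blk hp A [a] = pz hp a (A a) := by
  rw [blk_cons]; exact mul_one _

theorem blk_conj {h : ↥(D.group k)} {A : ℕ → SL k} {C : ℕ → SL k} : ∀ {s : List ℕ},
    (∀ a ∈ s, h * pz hp a (A a) * h⁻¹ = pz hp a (C a)) → h * blk hp A s * h⁻¹ = blk hp C s
  | [], _ => by show h * 1 * h⁻¹ = 1; group
  | a :: s, hs => by
    rw [blk_cons, blk_cons, ← hs a List.mem_cons_self, ← blk_conj (A := A) (C := C) (s := s)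
      fun b hb => hs b (List.mem_cons_of_mem _ hb)]
    group

/-! ### the theorems -/

/-- **LEMMA A for subgroups of a group embedded in `D.group k`**, blocks. -/
theorem lemA_hom [IsAlgClosed k] (p : ℕ) [Fact p.Prime] [CharP k p] (hp5 : 5 ≤ p) (hk : LocFin k) (hD : Dist D)
    {L : List (List ℕ)} (T : Tab D L) (hF : Ort hp (k := k) L.flatten) {A : ℕ → SL k}
    (hA : ∀ a ∈ L.flatten, A a * A a = hS (-1)) {S : Type v} [Group S] {φ : S →* ↥(D.group k)}
    (hφ : Function.Injective φ) {g : ↥(D.group k)} {y : List ℕ → S} (hy : ∀ s ∈ L, φ (y s) = g * blk hp A s * g⁻¹)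
    {R : Subgroup S} [Finite R] (hodd : Odd (Nat.card R)) (hpR : ¬ p ∣ Nat.card R)
    (hn : ∀ s ∈ L, ∀ x ∈ R, y s * x * (y s)⁻¹ ∈ R) : ∀ s ∈ L, ∀ x ∈ R, (y s * y s) * x = x * (y s * y s) := by
  have h2 : (2 : k) ≠ 0 := by
    have := cast_ne (k := k) p hp5 (m := 2) (by norm_num) ⟨by norm_num, by norm_num⟩ ⟨by norm_num, by norm_num⟩
    exact_mod_cast this
  obtain ⟨i, hi⟩ := IsAlgClosed.exists_pow_nat_eq (-1 : k) (show 0 < 2 by norm_num)
  rw [pow_two] at hi
  have hP : ∀ a : ℕ, ∃ P : SL k, a ∈ L.flatten → A a = P * hS i * P⁻¹ := by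
    intro a
    by_cases ha : a ∈ L.flatten
    · obtain ⟨P, hP⟩ := sl_conj h2 hi (hA a ha)
      exact ⟨P, fun _ => hP⟩
    · exact ⟨1, fun h => absurd h ha⟩
  choose P hP using hP
  obtain ⟨h, h1, -⟩ := exists_h hp hF P L.flatten (fun _ h => h) hF.nodup
  have h3 : ∀ s ∈ L, φ (y s) = (g * h) * xb hp i s * (g * h)⁻¹ := by
    intro s hs
    have h4 : h * xb hp i s * h⁻¹ = blk hp A s := by
      show h * blk hp (fun _ => hS i) s * h⁻¹ = _
      refine blk_conj hp fun a ha => ?_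
      have ha' : a ∈ L.flatten := List.mem_flatten.2 ⟨s, hs, ha⟩
      rw [h1 a ha', ← hP a ha']
    rw [hy s hs, ← h4]
    group
  -- the conjugate of the image of `R`
  set ψ : S →* ↥(D.group k) := (MulAut.conj (g * h)⁻¹).toMonoidHom.comp φ with hψ
  have hψa : ∀ x, ψ x = (g * h)⁻¹ * φ x * (g * h)⁻¹⁻¹ := fun x => rfl
  have hψi : Function.Injective ψ := (MulAut.conj (g * h)⁻¹).injective.comp hφ
  have hψy : ∀ s ∈ L, ψ (y s) = xb hp i s := by
    intro s hs
    rw [hψa, h3 s hs]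
    group
  have hcard : Nat.card (R.map ψ) = Nat.card R := Subgroup.card_map_of_injective hψi
  have hfin : Finite (R.map ψ) := Nat.finite_of_card_ne_zero (by rw [hcard]; exact Nat.card_pos.ne')
  have key := lemA hp p hp5 hk hD T hi (R := R.map ψ) (by rw [hcard]; exact hodd) (by rw [hcard]; exact hpR) (by
    rintro s hs _ ⟨x, hx, rfl⟩
    rw [← hψy s hs]
    exact ⟨_, hn s hs x hx, by rw [map_mul, map_mul, map_inv]⟩)
  intro s hs x hx
  apply hψi
  have := key s hs (ψ x) ⟨x, hx, rfl⟩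
  rw [← hψy s hs] at this
  simp only [map_mul]
  exact this

theorem flat_single : ∀ L : List ℕ, (L.map fun a => [a]).flatten = L
  | [] => rfl
  | a :: L => by rw [List.map_cons, List.flatten_cons, flat_single L]; rfl

theorem lemA_hom_single [IsAlgClosed k] (p : ℕ) [Fact p.Prime] [CharP k p] (hp5 : 5 ≤ p) (hk : LocFin k) (hD : Dist D)
    {L : List ℕ} (T : Tab D (L.map fun a => [a])) (hF : Ort hp (k := k) L) {A : ℕ → SL k}
    (hA : ∀ a ∈ L, A a * A a = hS (-1)) {S : Type v} [Group S] {φ : S →* ↥(D.group k)}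
    (hφ : Function.Injective φ) {g : ↥(D.group k)} {y : ℕ → S} (hy : ∀ a ∈ L, φ (y a) = g * pz hp a (A a) * g⁻¹)
    {R : Subgroup S} [Finite R] (hodd : Odd (Nat.card R)) (hpR : ¬ p ∣ Nat.card R)
    (hn : ∀ a ∈ L, ∀ x ∈ R, y a * x * (y a)⁻¹ ∈ R) : ∀ a ∈ L, ∀ x ∈ R, (y a * y a) * x = x * (y a * y a) := by
  have hfl : (L.map fun a => [a]).flatten = L := flat_single L
  have hm : ∀ s ∈ L.map (fun a => [a]), ∃ a ∈ L, s = [a] := by
    intro s hs
    obtain ⟨a, ha, rfl⟩ := List.mem_map.1 hs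
    exact ⟨a, ha, rfl⟩
  have key := lemA_hom hp p hp5 hk hD T (by rw [hfl]; exact hF) (A := A) (by rw [hfl]; exact hA) hφ (g := g)
    (y := fun s => y (s.headD 0)) (by
      intro s hs
      obtain ⟨a, ha, rfl⟩ := hm s hs
      rw [blk_single]
      exact hy a ha) (R := R) hodd hpR (by
      intro s hs
      obtain ⟨a, ha, rfl⟩ := hm s hs
      exact hn a ha)
  intro a ha
  exact key [a] (List.mem_map.2 ⟨a, ha, rfl⟩)

theorem ort_F4 (hp : IsType chevF4 l M) : Ort hp (k := k) [0, 6, 17, 22] := ort_of hp (by decide +kernel)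
theorem ort_E6 (hp : IsType chevE6 l M) : Ort hp (k := k) [0, 11, 27, 32] := ort_of hp (by decide +kernel)
theorem ort_E7 (hp : IsType chevE7 l M) : Ort hp (k := k) [0, 33, 38, 47, 52, 59, 62] := ort_of hp (by decide +kernel)
theorem ort_E8 (hp : IsType chevE8 l M) : Ort hp (k := k) [0, 13, 80, 87, 98, 104, 113, 118] :=
  ort_of hp (by decide +kernel)
theorem ort_D4 (hp : IsType chevD4 l M) : Ort hp (k := k) [23, 18, 13, 12] := ort_of hp (by decide +kernel)
theorem ort_D4' (hp : IsType chevD4 l M) : Ort hp (k := k) [0, 18, 13, 12] := ort_of hp (by decide +kernel)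
theorem ort_G2 (hp : IsType chevG2 l M) : Ort hp (k := k) [11, 7] := ort_of hp (by decide +kernel)

end Cfsg.Agent.H563.RV.LemA

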