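import Cfsg.Agent.H563.RV.LemA

/-!
# TEAM RV, NRow for the exceptional groups: the tables for LEMMA A (helper563)
-/

set_option autoImplicit false

namespace Cfsg.Agent.H563.RV.LemA

open Cfsg Cfsg.Lie Cfsg.Lie.ChevalleyDatum Cfsg.Agent.ChevalleyStructure

/-! ### the functionals, row by row (cheap kernel checks) -/

/-- the rows of the Cartan table -/
def rowsL (D : ChevalleyDatum) : List (List ℤ) := D.cartanSR.toList.map Array.toList

theorem car_eq_rows (D : ChevalleyDatum) (i r : ℕ) : Columns.car D i r = ((rowsL D).getD i []).getD r 0 := by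
  have e : D.cartanSR.getD i #[] = (D.cartanSR[i]?).getD #[] := Array.getD_eq_getD_getElem?
  unfold Columns.car rowsL
  rw [e, List.getD_eq_getElem?_getD (l := D.cartanSR.toList.map Array.toList), List.getElem?_map, Array.getElem?_toList]
  rcases D.cartanSR[i]? with _ | a
  · show (#[] : Array ℤ).getD r 0 = ([] : List ℤ).getD r 0
    rw [Array.getD_eq_getD_getElem?]
    simp
  · show a.getD r 0 = a.toList.getD r 0
    rw [Array.getD_eq_getD_getElem?, List.getD_eq_getElem?_getD, Array.getElem?_toList]

/-- one more row -/
def zc (acc : List ℕ) (row : List ℤ) : List ℕ := List.zipWith (fun x c => (x + 2).toNat + 5 * c) row acc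

/-- the codes of all roots -/
def codes (D : ChevalleyDatum) : List ℕ := (rowsL D).foldl zc (List.replicate D.nroots 0)

/-- the boolean check of the rows -/
def rowsB (D : ChevalleyDatum) : Bool :=
  decide ((rowsL D).length = D.rank) && (rowsL D).all fun row =>
    decide (row.length = D.nroots) && row.all fun x => decide (-2 ≤ x) && decide (x ≤ 2)

/-- the code of the zero functional -/
def zcode : ℕ → ℕ
  | 0 => 0
  | n + 1 => 2 + 5 * zcode n

theorem cd_zero {D : ChevalleyDatum} {r : ℕ} : ∀ {n : ℕ}, (∀ i < n, Columns.car D i r = 0) → cd D n r = zcode n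
  | 0, _ => rfl
  | n + 1, h => by
    show (Columns.car D n r + 2).toNat + 5 * cd D n r = 2 + 5 * zcode n
    rw [h n (Nat.lt_succ_self n), cd_zero fun i hi => h i (Nat.lt_succ_of_lt hi)]
    rfl

theorem take_codes (D : ChevalleyDatum) (hl : ∀ row ∈ rowsL D, row.length = D.nroots) :
    ∀ k ≤ (rowsL D).length, ((rowsL D).take k).foldl zc (List.replicate D.nroots 0) =
      (List.range D.nroots).map (cd D k)
  | 0, _ => by
    rw [List.take_zero, List.foldl_nil]
    refine List.ext_getElem (by simp) fun n h1 h2 => ?_
    rw [List.getElem_replicate, List.getElem_map]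
    rfl
  | k + 1, hk => by
    have hk' : k < (rowsL D).length := hk
    rw [List.take_succ_eq_append_getElem hk', List.foldl_append, take_codes D hl k hk'.le, List.foldl_cons,
      List.foldl_nil]
    have h1 := hl _ (List.getElem_mem hk')
    refine List.ext_getElem (by simp [zc, h1]) fun n h2 h3 => ?_
    have hn : n < D.nroots := by simpa using h3
    simp only [zc, List.getElem_zipWith, List.getElem_map, List.getElem_range]
    show _ = (Columns.car D k n + 2).toNat + 5 * cd D k n
    rw [car_eq_rows, List.getD_eq_getElem _ _ hk', List.getD_eq_getElem _ _ (by rw [h1]; exact hn)]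

/-- `Dist` from the rows -/
theorem dist_of_rows {D : ChevalleyDatum} (h : rowsB D = true) {L : List ℕ} (hL : codes D = L) (hz : zcode D.rank ∉ L)
    (hnd : L.Nodup) : Dist D := by
  unfold rowsB at h
  rw [Bool.and_eq_true, decide_eq_true_iff] at h
  obtain ⟨hr, h⟩ := h
  have h' : ∀ row ∈ rowsL D, row.length = D.nroots ∧ ∀ x ∈ row, -2 ≤ x ∧ x ≤ 2 := by
    intro row hrow
    have h1 := List.all_eq_true.1 h row hrow
    rw [Bool.and_eq_true, decide_eq_true_iff] at h1
    refine ⟨h1.1, fun x hx => ?_⟩
    have h2 := List.all_eq_true.1 h1.2 x hx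
    rw [Bool.and_eq_true, decide_eq_true_iff, decide_eq_true_iff] at h2
    exact h2
  have hcodes : L = (List.range D.nroots).map (cd D D.rank) := by
    have h1 := take_codes D (fun row hrow => (h' row hrow).1) _ le_rfl
    rw [List.take_length] at h1
    rw [← hL, ← hr]
    exact h1
  have hb : ∀ i < D.rank, ∀ r < D.nroots, -2 ≤ Columns.car D i r ∧ Columns.car D i r ≤ 2 := by
    intro i hi r hr'
    have hi' : i < (rowsL D).length := by rw [hr]; exact hi
    have h1 := h' _ (List.getElem_mem hi')
    rw [car_eq_rows, List.getD_eq_getElem _ _ hi', List.getD_eq_getElem _ _ (by rw [h1.1]; exact hr')]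
    exact h1.2 _ (List.getElem_mem _)
  rw [hcodes] at hnd hz
  refine ⟨fun i hi r hr => ?_, fun r hr => ?_, fun r hr r' hr' hne => ?_⟩
  · have := hb i hi r hr
    omega
  · by_contra hcon
    push Not at hcon
    exact hz (List.mem_map.2 ⟨r, List.mem_range.2 hr, cd_zero hcon⟩)
  · obtain ⟨i, hi, h3⟩ : ∃ i < D.rank, Columns.car D i r ≠ Columns.car D i r' := by
      by_contra hcon
      push Not at hcon
      exact hne (List.inj_on_of_nodup_map hnd (List.mem_range.2 hr) (List.mem_range.2 hr') (cd_eq hcon))
    have h4 := hb i hi r hr
    have h5 := hb i hi r' hr'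
    exact ⟨i, hi, by omega, by omega, by omega⟩

/-- the codes of the roots of `E8` -/
def cdE8 : List ℕ := [195311, 195308, 195292, 195212, 194812, 177187, 104687, 207812, 135312, 117687, 117287, 117207,
  117191, 117188, 257812, 288437, 270812, 270412, 270332, 270316, 270313, 198312, 197912, 197832, 197816, 197813,
  180287, 180207, 180191, 180188, 179807, 179791, 179788, 179711, 179708, 179692, 210912, 210832, 210816, 210813,
  210432, 210416, 210413, 210336, 210333, 210317, 192807, 192791, 192788, 192711, 192708, 192692, 192311, 192308,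
  192292, 192212, 120307, 120291, 120288, 120211, 120208, 120192, 119811, 119808, 119792, 119712, 102186, 102183,
  102167, 102087, 101687, 132811, 132808, 132792, 132712, 132312, 114687, 42187, 273432, 273416, 273413, 273336,
  273333, 273317, 272936, 272933, 272917, 272837, 255311, 255308, 255292, 255212, 254812, 182811, 182808, 182792,
  182712, 182312, 164687, 285936, 285933, 285917, 285837, 285437, 267812, 213436, 213433, 213417, 213337, 212937,
  195811, 195808, 195792, 195712, 195411, 195408, 195392, 195331, 195328, 195315, 195309, 195296, 195293, 195232,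
  195216, 195213, 194912, 194832, 194816, 194813, 177687, 177287, 177207, 177191, 177188, 122812, 105187, 104787,
  104707, 104691, 104688, 225937, 208312, 207912, 207832, 207816, 207813, 135812, 135412, 135332, 135316, 135313,
  117787, 117707, 117691, 117688, 117307, 117291, 117288, 117211, 117208, 117192, 348437, 275937, 258312, 257912,
  257832, 257816, 257813, 288937, 288537, 288457, 288441, 288438, 270912, 270832, 270816, 270813, 270432, 270416,
  270413, 270336, 270333, 270317, 198412, 198332, 198316, 198313, 197932, 197916, 197913, 197836, 197833, 197817,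
  180307, 180291, 180288, 180211, 180208, 180192, 179811, 179808, 179792, 179712, 210932, 210916, 210913, 210836,
  210833, 210817, 210436, 210433, 210417, 210337, 192811, 192808, 192792, 192712, 192312, 120311, 120308, 120292,
  120212, 119812, 102187, 132812, 273436, 273433, 273417, 273337, 272937, 255312, 182812, 285937, 213437, 195812,
  195412, 195332, 195316, 195313]

/-- the codes of the roots of `E7` -/
def cdE7 : List ℕ := [23437, 54062, 39562, 36037, 35957, 35941, 35938, 42162, 42082, 42066, 42063, 38557, 38541,
  38538, 38461, 38458, 38442, 24057, 24041, 24038, 23961, 23958, 23942, 20436, 20433, 20417, 20337, 26561, 26558,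
  26542, 26462, 22937, 8437, 54682, 54666, 54663, 54586, 54583, 54567, 51061, 51058, 51042, 50962, 36561, 36558,
  36542, 36462, 32937, 57186, 57183, 57167, 57087, 53562, 42686, 42683, 42667, 42587, 39161, 39158, 39142, 39081,
  39078, 39065, 39059, 39046, 39043, 38982, 38966, 38963, 35537, 35457, 35441, 35438, 24562, 21037, 20957, 20941,
  20938, 45187, 41662, 41582, 41566, 41563, 27162, 27082, 27066, 27063, 23557, 23541, 23538, 23461, 23458, 23442,
  69687, 55187, 51662, 51582, 51566, 51563, 57787, 57707, 57691, 57688, 54182, 54166, 54163, 54086, 54083, 54067,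
  39682, 39666, 39663, 39586, 39583, 39567, 36061, 36058, 36042, 35962, 42186, 42183, 42167, 42087, 38562, 24062,
  54687]

theorem codes_E7 : codes chevE7 = cdE7 := by decide +kernel
theorem nodup_E7 : cdE7.Nodup := by decide +kernel
theorem codes_E8 : codes chevE8 = cdE8 := by decide +kernel
theorem nodup_E8 : cdE8.Nodup := by decide +kernel

theorem dist_F4 : Dist chevF4 := dist_of (by decide +kernel) (by decide +kernel)
theorem dist_E6 : Dist chevE6 := dist_of (by decide +kernel) (by decide +kernel)
theorem dist_E7 : Dist chevE7 := dist_of_rows (by decide +kernel) codes_E7 (by decide +kernel) nodup_E7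
theorem dist_E8 : Dist chevE8 := dist_of_rows (by decide +kernel) codes_E8 (by decide +kernel) nodup_E8
theorem dist_D4 : Dist chevD4 := dist_of (by decide +kernel) (by decide +kernel)
theorem dist_G2 : Dist chevG2 := ⟨by decide +kernel, by decide +kernel, by decide +kernel⟩

/-- the check of one root -/
def frR (D : ChevalleyDatum) (L : List (List ℕ)) (r : ℕ) : Bool :=
  decide (2 ≤ (L.filter fun s => decide (ex D s r % 2 ≠ 0)).length) ||
    ((L.all fun s => decide (ex D s r % 2 = 0)) &&
      decide ((L.filter fun s => decide (ex D s r % 4 ≠ 0)).length = 1))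

/-- `Tab` in four pieces -/
theorem tab_of_four {D : ChevalleyDatum} {L : List (List ℕ)} (m : ℕ)
    (h : (L.all fun s => s.all fun a => decide (a < D.nroots)) = true)
    (h0 : (List.range' 0 m).all (frR D L) = true) (h1 : (List.range' m m).all (frR D L) = true)
    (h2 : (List.range' (2 * m) m).all (frR D L) = true)
    (h3 : (List.range' (3 * m) (D.nroots - 3 * m)).all (frR D L) = true) : Tab D L := by
  refine tab_of ?_
  unfold frB
  rw [Bool.and_eq_true]
  refine ⟨h, List.all_eq_true.2 fun r hr => ?_⟩
  rw [List.mem_range] at hr
  show frR D L r = true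
  rcases lt_or_ge r m with a | a
  · exact List.all_eq_true.1 h0 r (List.mem_range'_1.2 ⟨Nat.zero_le _, by omega⟩)
  rcases lt_or_ge r (2 * m) with b | b
  · exact List.all_eq_true.1 h1 r (List.mem_range'_1.2 ⟨a, by omega⟩)
  rcases lt_or_ge r (3 * m) with c | c
  · exact List.all_eq_true.1 h2 r (List.mem_range'_1.2 ⟨b, by omega⟩)
  · exact List.all_eq_true.1 h3 r (List.mem_range'_1.2 ⟨c, by omega⟩)

theorem fr_E8_0 : (List.range' 0 60).all (frR chevE8 [[0], [13], [80], [87], [98], [104], [113], [118]]) = true := by
  decide +kernel
theorem fr_E8_1 : (List.range' 60 60).all (frR chevE8 [[0], [13], [80], [87], [98], [104], [113], [118]]) = true := by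
  decide +kernel
theorem fr_E8_2 : (List.range' (2 * 60) 60).all (frR chevE8 [[0], [13], [80], [87], [98], [104], [113], [118]]) = true := by
  decide +kernel
theorem fr_E8_3 : (List.range' (3 * 60) (chevE8.nroots - 3 * 60)).all
    (frR chevE8 [[0], [13], [80], [87], [98], [104], [113], [118]]) = true := by decide +kernel

theorem tab_F4 : Tab chevF4 [[0], [6], [17], [22]] := tab_of (by decide +kernel)
theorem tab_E6 : Tab chevE6 [[0], [11], [27], [32]] := tab_of (by decide +kernel)
theorem tab_E7 : Tab chevE7 [[0], [33], [38], [47], [52], [59], [62]] := tab_of (by decide +kernel)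
theorem tab_E8 : Tab chevE8 [[0], [13], [80], [87], [98], [104], [113], [118]] :=
  tab_of_four 60 (by decide +kernel) fr_E8_0 fr_E8_1 fr_E8_2 fr_E8_3
/-- the highest root and the product of the three outer nodes (`³D₄`) -/
theorem tab_D4 : Tab chevD4 [[23], [18, 13, 12]] := tab_of (by decide +kernel)
/-- the lowest root and the product of the three outer nodes (`³D₄`) -/
theorem tab_D4' : Tab chevD4 [[0], [18, 13, 12]] := tab_of (by decide +kernel)
/-- the highest root and the orthogonal simple root -/
theorem tab_G2 : Tab chevG2 [[11], [7]] := tab_of (by decide +kernel)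

end Cfsg.Agent.H563.RV.LemA
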